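import Mathlib
import Cfsg.Prelude.Def_CaseTheorems

/-!
# Chief factors of a finite group

* `IsChief K H`: `H / K` is a chief factor of the ambient group.
* `IsChief.inf`, `IsChief.quotient`: intersection with a normal subgroup and passage to a quotient.
* `exists_chief_above`: a chief factor above a given normal subgroup.
-/

set_option autoImplicit false

namespace Cfsg.Agent.H17.Chief

open Subgroup

variable {G : Type*} [Group G]

/-- `H / K` is a chief factor of `G`. -/
structure IsChief (K H : Subgroup G) : Prop where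
  nK : K.Normal
  nH : H.Normal
  lt : K < H
  max : ∀ L : Subgroup G, L.Normal → K ≤ L → L ≤ H → L = K ∨ L = H

/-- Intersecting a chief factor with a normal subgroup. -/
theorem IsChief.inf {K H : Subgroup G} (h : IsChief K H) (N : Subgroup G) [N.Normal]
    (hN : ¬ H ⊓ N ≤ K) :
    IsChief (K ⊓ N) (H ⊓ N) ∧ (K ⊓ N).relIndex (H ⊓ N) = K.relIndex H := by
  have := h.nK
  have := h.nH
  have hsup : K ⊔ (H ⊓ N) = H := by
    rcases h.max (K ⊔ (H ⊓ N)) inferInstance le_sup_left (sup_le h.lt.le inf_le_left) with h1 | h1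
    · exact absurd (h1 ▸ le_sup_right) hN
    · exact h1
  refine ⟨⟨inferInstance, inferInstance, ?_, ?_⟩, ?_⟩
  · refine lt_of_le_of_ne (inf_le_inf_right N h.lt.le) ?_
    intro he
    apply hN
    rw [← he]
    exact inf_le_left
  · intro L hL hKL hLH
    rcases h.max (K ⊔ L) inferInstance le_sup_left
      (sup_le h.lt.le (hLH.trans inf_le_left)) with h1 | h1
    · left
      apply le_antisymm _ hKL
      exact le_inf (h1 ▸ le_sup_right) (hLH.trans inf_le_right)
    · right
      apply le_antisymm hLH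
      rw [← h1]
      rintro x ⟨hx, hxN⟩
      have hx' : x ∈ L ⊔ K := by rw [sup_comm]; exact hx
      rw [Subgroup.mem_sup_of_normal_left] at hx'
      obtain ⟨l, hl, k, hk, rfl⟩ := hx'
      have hlN : l ∈ N := (hLH hl).2
      have hkN : k ∈ N := by
        have : l⁻¹ * (l * k) ∈ N := mul_mem (inv_mem hlN) hxN
        rwa [inv_mul_cancel_left] at this
      exact mul_mem hl (hKL ⟨hk, hkN⟩)
  · rw [inf_relIndex_inf_eq_aux h N hsup]
where
  inf_relIndex_inf_eq_aux {K H : Subgroup G} (h : IsChief K H) (N : Subgroup G) [N.Normal]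
      (hsup : K ⊔ (H ⊓ N) = H) : (K ⊓ N).relIndex (H ⊓ N) = K.relIndex H := by
    have := h.nK
    have e1 : (K ⊓ N).relIndex (H ⊓ N) = K.relIndex (H ⊓ N) := by
      rw [← inf_relIndex_right K (H ⊓ N), ← inf_assoc, inf_eq_left.2 h.lt.le]
    have e2 : K.relIndex (K ⊔ (H ⊓ N)) = K.relIndex (H ⊓ N) := relIndex_sup_left _ _
    rw [e1, ← e2, hsup]

/-- Passing to a quotient. -/
theorem IsChief.quotient {K H : Subgroup G} (h : IsChief K H) (N : Subgroup G) [N.Normal]
    (hN : H ⊓ N ≤ K) :
    IsChief (K.map (QuotientGroup.mk' N)) (H.map (QuotientGroup.mk' N)) ∧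
      (K.map (QuotientGroup.mk' N)).relIndex (H.map (QuotientGroup.mk' N)) = K.relIndex H ∧
      (K ⊔ N).relIndex (H ⊔ N) = K.relIndex H := by
  have := h.nK
  have := h.nH
  set f := QuotientGroup.mk' N with hf
  have hfs : Function.Surjective f := QuotientGroup.mk'_surjective N
  have hker : f.ker = N := QuotientGroup.ker_mk' N
  have hnK : (K.map f).Normal := Subgroup.Normal.map inferInstance f hfs
  have hnH : (H.map f).Normal := Subgroup.Normal.map inferInstance f hfs
  have hrel : (K ⊔ N).relIndex (H ⊔ N) = K.relIndex H := by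
    have e1 : H ⊔ N = H ⊔ (K ⊔ N) := by
      rw [← sup_assoc, sup_eq_left.2 h.lt.le]
    have e2 : (K ⊔ N).relIndex (H ⊔ (K ⊔ N)) = (K ⊔ N).relIndex H := relIndex_sup_right _ _
    have e3 : (K ⊔ N) ⊓ H = K := by
      apply le_antisymm
      · rintro x ⟨hx, hxH⟩
        change x ∈ K ⊔ N at hx
        rw [Subgroup.mem_sup_of_normal_left] at hx
        obtain ⟨k, hk, n, hn, rfl⟩ := hx
        have hnH : n ∈ H := by
          have : k⁻¹ * (k * n) ∈ H := mul_mem (inv_mem (h.lt.le hk)) hxH
          rwa [inv_mul_cancel_left] at this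
        exact mul_mem hk (hN ⟨hnH, hn⟩)
      · exact le_inf le_sup_left h.lt.le
    rw [e1, e2, ← inf_relIndex_right, e3]
  have hrel' : (K.map f).relIndex (H.map f) = K.relIndex H := by
    rw [relIndex_map_map, hker, hrel]
  refine ⟨⟨hnK, hnH, ?_, ?_⟩, hrel', hrel⟩
  · refine lt_of_le_of_ne (Subgroup.map_mono h.lt.le) ?_
    intro he
    rw [he, relIndex_self] at hrel'
    have h1 : H ≤ K := relIndex_eq_one.1 hrel'.symm
    exact absurd h.lt (not_lt_of_ge h1)
  · intro L hL hKL hLH
    have hLn : (L.comap f).Normal := hL.comap f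
    rcases h.max (L.comap f ⊓ H) inferInstance
      (le_inf (Subgroup.map_le_iff_le_comap.1 hKL) h.lt.le) inf_le_right with h1 | h1
    · left
      apply le_antisymm _ hKL
      intro y hy
      obtain ⟨x, hx, rfl⟩ := hLH hy
      exact ⟨x, by
        change x ∈ K
        rw [← h1]
        exact ⟨hy, hx⟩, rfl⟩
    · right
      apply le_antisymm hLH
      rw [Subgroup.map_le_iff_le_comap]
      exact inf_eq_right.1 h1

/-- A chief factor above a normal subgroup `M < P`. -/
theorem exists_chief_above [Finite G] {M P : Subgroup G} (hM : M.Normal) (hP : P.Normal)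
    (hlt : M < P) : ∃ U : Subgroup G, IsChief M U ∧ U ≤ P := by
  let S : Set (Subgroup G) := {U | U.Normal ∧ M < U ∧ U ≤ P}
  obtain ⟨U, ⟨hU, hMU, hUP⟩, hmin⟩ := (Set.toFinite S).exists_minimal ⟨P, hP, hlt, le_rfl⟩
  refine ⟨U, ⟨hM, hU, hMU, ?_⟩, hUP⟩
  intro L hL hML hLU
  by_cases h : L = M
  · exact Or.inl h
  · right
    exact le_antisymm hLU (hmin ⟨hL, lt_of_le_of_ne hML (Ne.symm h), hLU.trans hUP⟩ hLU)

end Cfsg.Agent.H17.Chief
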