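import Mathlib
import Cfsg.Agent.H17.PCentral
import Cfsg.Agent.Transfer.PGroupNormal

/-!
# Chief factors below a normal `p`-subgroup of rank at most two, `p` odd

`chief_of_rank_two`: let `p` be an odd prime, `P` a normal `p`-subgroup of the finite group `G` all of
whose elementary abelian subgroups have order at most `p ^ 2`. Then every chief factor of `G` below `P`
has order at most `p ^ 2`.
-/

set_option autoImplicit false

namespace Cfsg.Agent.H17.RankTwoChief

open Subgroup
open scoped commutatorElement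
open Cfsg.Agent.H17.Chief Cfsg.Agent.H17.PCentral

variable {G : Type*} [Group G]

/-- The index of the centralizer of `x` is at most the size of a set containing the orbit. -/
theorem relIndex_centralizer_le [Finite G] (H : Subgroup G) (x : G) (S : Set G)
    (hS : ∀ h ∈ H, h * x * h⁻¹ ∈ S) :
    (centralizer ({x} : Set G)).relIndex H ≤ Nat.card S := by
  have h1 : (centralizer ({x} : Set G)).relIndex H =
    Nat.card (H ⧸ (centralizer ({x} : Set G)).subgroupOf H) := rfl
  rw [h1]
  have hwd : ∀ a b : H, (QuotientGroup.leftRel ((centralizer ({x} : Set G)).subgroupOf H)) a b →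
      (⟨(a : G) * x * (a : G)⁻¹, hS a a.2⟩ : S) = ⟨(b : G) * x * (b : G)⁻¹, hS b b.2⟩ := by
    intro a b hab
    rw [QuotientGroup.leftRel_apply, mem_subgroupOf, mem_centralizer_singleton_iff] at hab
    apply Subtype.ext
    change (a : G) * x * (a : G)⁻¹ = (b : G) * x * (b : G)⁻¹
    have h2 : ((a : G)⁻¹ * (b : G)) * x = x * ((a : G)⁻¹ * (b : G)) := hab
    calc (a : G) * x * (a : G)⁻¹ = a * (x * ((a : G)⁻¹ * (b : G))) * (b : G)⁻¹ := by group
      _ = a * (((a : G)⁻¹ * (b : G)) * x) * (b : G)⁻¹ := by rw [h2]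
      _ = (b : G) * x * (b : G)⁻¹ := by group
  apply Nat.card_le_card_of_injective (Quotient.lift
    (fun a : H => (⟨(a : G) * x * (a : G)⁻¹, hS a a.2⟩ : S)) hwd)
  intro a b
  refine Quotient.inductionOn₂ a b ?_
  intro a b hab
  apply Quotient.sound
  change (QuotientGroup.leftRel ((centralizer ({x} : Set G)).subgroupOf H)) a b
  rw [QuotientGroup.leftRel_apply, mem_subgroupOf, mem_centralizer_singleton_iff]
  have h2 : (a : G) * x * (a : G)⁻¹ = (b : G) * x * (b : G)⁻¹ := congrArg Subtype.val hab
  change ((a : G)⁻¹ * (b : G)) * x = x * ((a : G)⁻¹ * (b : G))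
  calc ((a : G)⁻¹ * (b : G)) * x = (a : G)⁻¹ * ((b : G) * x * (b : G)⁻¹) * b := by group
    _ = (a : G)⁻¹ * ((a : G) * x * (a : G)⁻¹) * b := by rw [h2]
    _ = x * ((a : G)⁻¹ * (b : G)) := by group

theorem relIndex_pow [Finite G] {p : ℕ} [hp : Fact p.Prime] {H : Subgroup G} (hH : IsPGroup p H)
    (L : Subgroup G) : ∃ k : ℕ, L.relIndex H = p ^ k := by
  obtain ⟨n, hn⟩ := IsPGroup.iff_card.1 hH
  have h1 : L.relIndex H ∣ p ^ n := hn ▸ Subgroup.relIndex_dvd_card L H
  obtain ⟨k, -, hk⟩ := (Nat.dvd_prime_pow hp.out).1 h1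
  exact ⟨k, hk⟩

/-- A `p`-subgroup normalizing a `p`-subgroup `E` of order at most `p ^ 2` induces on it a group of
order at most `p`. -/
theorem relIndex_centralizer_le_prime [Finite G] {p : ℕ} [hp : Fact p.Prime] {H E : Subgroup G}
    (hH : IsPGroup p H) (hE : IsPGroup p E) (hHE : ∀ h ∈ H, ∀ e ∈ E, h * e * h⁻¹ ∈ E)
    (hcard : Nat.card E ≤ p ^ 2) : (centralizer (E : Set G)).relIndex H ≤ p := by
  set F : Subgroup G := E ⊓ centralizer (H : Set G) with hF
  by_cases hFE : F = E
  · have h1 : H ≤ centralizer (E : Set G) := by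
      rw [le_centralizer_iff]
      rw [← hFE]
      exact inf_le_right
    rw [relIndex_eq_one.2 h1]
    exact hp.out.one_le
  have hFlt : F < E := lt_of_le_of_ne inf_le_left hFE
  obtain ⟨x, hxE, hxF⟩ := SetLike.exists_of_lt hFlt
  -- the fixed points
  let act : MulAction H E :=
    { smul := fun h e => ⟨h * e * (h : G)⁻¹, hHE h h.2 e e.2⟩
      one_smul := fun e => Subtype.ext (by
        change ((1 : H) : G) * e * ((1 : H) : G)⁻¹ = e
        simp)
      mul_smul := fun a b e => Subtype.ext (by
        change ((a * b : H) : G) * e * ((a * b : H) : G)⁻¹ = a * (b * e * (b : G)⁻¹) * (a : G)⁻¹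
        simp [mul_assoc]) }
  have hsmul : ∀ (h : H) (e : E), ((h • e : E) : G) = h * e * (h : G)⁻¹ := fun _ _ => rfl
  have hfix : ∀ e : E, e ∈ MulAction.fixedPoints H E ↔ (e : G) ∈ F := by
    intro e
    constructor
    · intro h
      refine ⟨e.2, ?_⟩
      change (e : G) ∈ centralizer (H : Set G)
      rw [mem_centralizer_iff]
      intro g hg
      have h1 := congrArg Subtype.val (h ⟨g, hg⟩)
      rw [hsmul] at h1
      exact mul_inv_eq_iff_eq_mul.1 h1
    · intro h g
      apply Subtype.ext
      rw [hsmul]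
      exact mul_inv_eq_iff_eq_mul.2 ((mem_centralizer_iff.1 h.2) g g.2)
  have hmod := hH.card_modEq_card_fixedPoints E
  have hcf : Nat.card (MulAction.fixedPoints H E) = Nat.card F := by
    refine Nat.card_congr
      { toFun := fun e => ⟨(e : E), (hfix e).1 e.2⟩
        invFun := fun f => ⟨⟨f, f.2.1⟩, (hfix _).2 f.2⟩
        left_inv := fun e => rfl
        right_inv := fun f => rfl }
  rw [hcf] at hmod
  obtain ⟨n, hn⟩ := IsPGroup.iff_card.1 hE
  have hn0 : n ≠ 0 := by
    rintro rfl
    rw [pow_zero, Subgroup.card_eq_one] at hn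
    rw [hn] at hFlt
    exact not_lt_bot hFlt
  have hpF : p ∣ Nat.card F := by
    have h1 : Nat.card E ≡ 0 [MOD p] := by
      rw [hn]; exact (Nat.modEq_zero_iff_dvd.2 (dvd_pow_self p hn0))
    exact (Nat.modEq_zero_iff_dvd.1 (hmod.symm.trans h1))
  have hFdvd : Nat.card F ∣ Nat.card E := Subgroup.card_dvd_of_le hFlt.le
  have hFlt' : Nat.card F < Nat.card E := by
    refine lt_of_le_of_ne (Nat.le_of_dvd Nat.card_pos hFdvd) ?_
    intro h
    exact hFE (Subgroup.eq_of_le_of_card_ge hFlt.le h.ge)
  have hFp : p ≤ Nat.card F := Nat.le_of_dvd Nat.card_pos hpF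
  have hn2 : n = 2 := by
    have h1 : n ≤ 2 := by
      rw [hn] at hcard
      exact (Nat.pow_le_pow_iff_right hp.out.one_lt).1 hcard
    have h2 : n ≠ 1 := by
      rintro rfl
      rw [hn, pow_one] at hFlt'
      omega
    omega
  subst hn2
  -- `F` and `x` generate `E`
  have hgen : F ⊔ zpowers x = E := by
    have hle : F ⊔ zpowers x ≤ E := sup_le hFlt.le (by rw [zpowers_le]; exact hxE)
    apply Subgroup.eq_of_le_of_card_ge hle
    have h1 : Nat.card (F ⊔ zpowers x : Subgroup G) ∣ p ^ 2 := by
      rw [← hn]; exact Subgroup.card_dvd_of_le hle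
    obtain ⟨m, -, hm⟩ := (Nat.dvd_prime_pow hp.out).1 h1
    have h2 : Nat.card F < Nat.card (F ⊔ zpowers x : Subgroup G) := by
      refine lt_of_le_of_ne (Subgroup.card_le_of_le le_sup_left) ?_
      intro h
      have h3 := Subgroup.eq_of_le_of_card_ge (le_sup_left : F ≤ F ⊔ zpowers x) h.ge
      apply hxF
      rw [h3]
      exact mem_sup_right (mem_zpowers x)
    rw [hn, hm]
    apply Nat.pow_le_pow_right hp.out.pos
    by_contra hlt
    push Not at hlt
    have h3 : p ^ m ≤ p ^ 1 := Nat.pow_le_pow_right hp.out.pos (by omega)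
    rw [pow_one] at h3
    omega
  have hle : (centralizer (E : Set G)).relIndex H ≤ (centralizer ({x} : Set G)).relIndex H := by
    have h1 : centralizer ({x} : Set G) ⊓ H ≤ centralizer (E : Set G) := by
      rw [le_centralizer_iff, ← hgen, sup_le_iff]
      constructor
      · intro f hf
        rw [mem_centralizer_iff]
        rintro g ⟨-, hg⟩
        exact (mem_centralizer_iff.1 hf.2) g hg
      · rw [zpowers_le, mem_centralizer_iff]
        rintro g ⟨hg, -⟩
        exact mem_centralizer_singleton_iff.1 hg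
    have h2 := Subgroup.relIndex_dvd_of_le_left H h1
    rw [inf_relIndex_right] at h2
    exact Nat.le_of_dvd (Nat.pos_of_ne_zero Subgroup.index_ne_zero_of_finite) h2
  refine hle.trans ?_
  -- the orbit of `x`
  have horb : (centralizer ({x} : Set G)).relIndex H ≤ Nat.card ((E : Set G) \ (F : Set G) : Set G) := by
    apply relIndex_centralizer_le
    intro h hh
    refine ⟨hHE h hh x hxE, ?_⟩
    intro hF'
    apply hxF
    refine ⟨hxE, ?_⟩
    change x ∈ centralizer (H : Set G)
    have h1 := (mem_centralizer_iff.1 hF'.2) h hh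
    have h2 : h * x * h⁻¹ = x := by
      have h3 : h * (h * x * h⁻¹) = h * x := by rw [h1]; group
      exact mul_left_cancel h3
    rw [← h2]
    exact hF'.2
  have hsd : Nat.card ((E : Set G) \ (F : Set G) : Set G) < p ^ 2 := by
    rw [← hn]
    change Nat.card _ < Nat.card (E : Set G)
    rw [Nat.card_coe_set_eq, Nat.card_coe_set_eq]
    apply Set.ncard_lt_ncard _ (Set.toFinite _)
    refine ⟨Set.sdiff_subset, ?_⟩
    intro h
    exact (h (one_mem E)).2 (one_mem F)
  obtain ⟨k, hk⟩ := relIndex_pow hH (centralizer ({x} : Set G))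
  rw [hk] at horb ⊢
  have h1 : p ^ k < p ^ 2 := lt_of_le_of_lt horb hsd
  have h2 : k < 2 := (Nat.pow_lt_pow_iff_right hp.out.one_lt).1 h1
  calc p ^ k ≤ p ^ 1 := Nat.pow_le_pow_right hp.out.pos (by omega)
    _ = p := pow_one p

/-- The inductive statement: all chief factors below `P` smaller than `U` are small. -/
theorem chief_of_rank_two_aux [Finite G] {p : ℕ} [hpf : Fact p.Prime] (hp : p ≠ 2) {P : Subgroup G}
    (hP : IsPGroup p P)
    (hr : ∀ A : Subgroup G, A ≤ P → (∀ a ∈ A, ∀ b ∈ A, a * b = b * a) → (∀ a ∈ A, a ^ p = 1) →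
      Nat.card A ≤ p ^ 2) (n : ℕ) :
    ∀ K H : Subgroup G, Nat.card H = n → IsChief K H → H ≤ P → K.relIndex H ≤ p ^ 2 := by
  induction n using Nat.strong_induction_on with
  | _ n ih =>
  intro K H hn hKH hHP
  by_contra hbig
  push Not at hbig
  have hKn := hKH.nK
  have hHn := hKH.nH
  have hHp : IsPGroup p H := hP.to_le hHP
  have hp1 : 1 < p := hpf.out.one_lt
  -- (*)
  have star : ∀ N : Subgroup G, N.Normal → H ≤ N ∨ H ⊓ N ≤ K := by
    intro N hN
    by_contra hcon
    push Not at hcon
    obtain ⟨h1, h2⟩ := hcon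
    obtain ⟨h3, h4⟩ := hKH.inf N h2
    have hlt : Nat.card (H ⊓ N : Subgroup G) < n := by
      rw [← hn]
      refine lt_of_le_of_ne (Subgroup.card_le_of_le inf_le_left) ?_
      intro h
      have h5 := Subgroup.eq_of_le_of_card_ge (inf_le_left : H ⊓ N ≤ H) h.ge
      exact h1 (inf_eq_left.1 h5)
    have h5 := ih _ hlt _ _ rfl h3 (inf_le_left.trans hHP)
    rw [h4] at h5
    omega
  have s0 : ∀ D : Subgroup G, D.Normal → D.relIndex H ≤ p ^ 2 → H ≤ D := by
    intro D hD hle
    rcases star D hD with h | h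
    · exact h
    · exfalso
      have h1 : K.relIndex H ∣ (D ⊓ H).relIndex H :=
        Subgroup.relIndex_dvd_of_le_left H (by rw [inf_comm]; exact h)
      rw [inf_relIndex_right] at h1
      have h2 : K.relIndex H ≤ D.relIndex H :=
        Nat.le_of_dvd (Nat.pos_of_ne_zero Subgroup.index_ne_zero_of_finite) h1
      omega
  -- (s1) normal elementary abelian subgroups are central
  have s1 : ∀ E : Subgroup G, E.Normal → E ≤ H → (∀ a ∈ E, ∀ b ∈ E, a * b = b * a) →
      (∀ a ∈ E, a ^ p = 1) → ∀ e ∈ E, ∀ h ∈ H, e * h = h * e := by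
    intro E hEn hEH hEc hEp e he h hh
    have h1 : (centralizer (E : Set G)).relIndex H ≤ p :=
      relIndex_centralizer_le_prime hHp (hHp.to_le hEH) (fun h _ e he => hEn.conj_mem e he h)
        (hr E (hEH.trans hHP) hEc hEp)
    have h2 : H ≤ centralizer (E : Set G) := by
      apply s0 _ inferInstance
      exact h1.trans (Nat.le_self_pow (by norm_num) p)
    exact (mem_centralizer_iff.1 (h2 hh)) e he
  -- the group `A = Ω₁(Z(H))`
  let A : Subgroup G :=
    { carrier := {x | x ∈ H ∧ x ^ p = 1 ∧ ∀ h ∈ H, x * h = h * x}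
      mul_mem' := by
        rintro a b ⟨ha, ha', hac⟩ ⟨hb, hb', hbc⟩
        refine ⟨mul_mem ha hb, ?_, ?_⟩
        · rw [(show Commute a b from hac b hb).mul_pow, ha', hb', one_mul]
        · intro h hh
          exact ((show Commute a h from hac h hh).mul_left (hbc h hh))
      one_mem' := ⟨one_mem _, one_pow p, fun h _ => by rw [one_mul, mul_one]⟩
      inv_mem' := by
        rintro a ⟨ha, ha', hac⟩
        exact ⟨inv_mem ha, by rw [inv_pow, ha', inv_one],
          fun h hh => (show Commute a h from hac h hh).inv_left⟩ }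
  have hAn : A.Normal := by
    refine ⟨fun a ha g => ⟨hHn.conj_mem a ha.1 g, ?_, ?_⟩⟩
    · rw [conj_pow, ha.2.1, mul_one, mul_inv_cancel]
    · intro h hh
      have h1 : g⁻¹ * h * g ∈ H := by
        have := hHn.conj_mem h hh g⁻¹
        rwa [inv_inv] at this
      have h2 := ha.2.2 _ h1
      calc g * a * g⁻¹ * h = g * (a * (g⁻¹ * h * g)) * g⁻¹ := by group
        _ = g * ((g⁻¹ * h * g) * a) * g⁻¹ := by rw [h2]
        _ = h * (g * a * g⁻¹) := by group
  have hAH : A ≤ H := fun a ha => ha.1
  have hAc : ∀ a ∈ A, ∀ h ∈ H, a * h = h * a := fun a ha => ha.2.2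
  have hAp : ∀ a ∈ A, a ^ p = 1 := fun a ha => ha.2.1
  have hAcomm : ∀ a ∈ A, ∀ b ∈ A, a * b = b * a := fun a ha b hb => hAc a ha b (hAH hb)
  have hAcard : Nat.card A ≤ p ^ 2 := hr A (hAH.trans hHP) hAcomm hAp
  -- adding an element of order `p`
  have hadd : ∀ x ∈ H, x ^ p = 1 → Nat.card (A ⊔ zpowers x : Subgroup G) ≤ p ^ 2 := by
    intro x hx hxp
    have hform : ∀ y ∈ A ⊔ zpowers x, ∃ a ∈ A, ∃ k : ℤ, y = a * x ^ k := by
      intro y hy
      rw [Subgroup.mem_sup_of_normal_left] at hy
      obtain ⟨a, ha, z, ⟨k, rfl⟩, rfl⟩ := hy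
      exact ⟨a, ha, k, rfl⟩
    apply hr
    · exact (sup_le hAH (by rw [zpowers_le]; exact hx)).trans hHP
    · intro y hy z hz
      obtain ⟨a, ha, k, rfl⟩ := hform y hy
      obtain ⟨b, hb, l, rfl⟩ := hform z hz
      have e1 : Commute a b := hAcomm a ha b hb
      have e2 : Commute a x := hAc a ha x hx
      have e3 : Commute b x := hAc b hb x hx
      exact ((e1.mul_right (e2.zpow_right l))).mul_left
        (((e3.symm.zpow_left k)).mul_right ((Commute.refl x).zpow_zpow k l))
    · intro y hy
      obtain ⟨a, ha, k, rfl⟩ := hform y hy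
      have e2 : Commute a (x ^ k) := (show Commute a x from hAc a ha x hx).zpow_right k
      rw [e2.mul_pow, hAp a ha, one_mul, ← zpow_natCast, ← zpow_mul, mul_comm, zpow_mul,
        zpow_natCast, hxp, one_zpow]
  by_cases hA2 : p < Nat.card A
  · -- `H` is `p`-central
    have hA3 : Nat.card A = p ^ 2 := by
      obtain ⟨k, hk⟩ := IsPGroup.iff_card.1 (hHp.to_le hAH)
      rw [hk] at hA2 hAcard ⊢
      have h1 : k ≤ 2 := (Nat.pow_le_pow_iff_right hp1).1 hAcard
      have h2 : 1 < k := by
        apply (Nat.pow_lt_pow_iff_right hp1).1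
        rw [pow_one]; exact hA2
      have h3 : k = 2 := by omega
      rw [h3]
    have hmem : ∀ x ∈ H, x ^ p = 1 → x ∈ A := by
      intro x hx hxp
      have h1 := Subgroup.eq_of_le_of_card_ge (le_sup_left : A ≤ A ⊔ zpowers x)
        (by rw [hA3]; exact hadd x hx hxp)
      rw [h1]
      exact mem_sup_right (mem_zpowers x)
    have h1 := chief_of_pcentral hp H hHp (fun x hx hxp y hy => hAc x (hmem x hx hxp) y hy)
      (fun B hB hBp => (Subgroup.card_le_of_le (fun b hb => hmem b (hB hb) (hBp b hb))).trans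
        hAcard) hKH le_rfl
    omega
  push Not at hA2
  -- `p`-th powers and commutators of elements of `H` lie in `K`
  have hΦ : (frattini H).map H.subtype ≤ K := by
    rcases star ((frattini H).map H.subtype) inferInstance with h | h
    · exfalso
      have h1 : frattini H = ⊤ := by
        rw [eq_top_iff]
        rintro ⟨x, hx⟩ -
        obtain ⟨y, hy, hyx⟩ := h hx
        have : y = ⟨x, hx⟩ := Subtype.ext hyx
        rwa [this] at hy
      have h2 : (⊥ : Subgroup H) = ⊤ := frattini_nongenerating (by rw [h1]; exact sup_top_eq _)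
      have h3 : H ≤ K := by
        intro x hx
        have h4 : (⟨x, hx⟩ : H) ∈ (⊥ : Subgroup H) := by rw [h2]; exact mem_top _
        have h5 : x = 1 := congrArg Subtype.val (Subgroup.mem_bot.1 h4)
        rw [h5]
        exact one_mem _
      exact absurd hKH.lt (not_lt_of_ge h3)
    · have h1 : (frattini H).map H.subtype ≤ H := map_subtype_le _
      rwa [inf_eq_right.2 h1] at h
  have hpow : ∀ x ∈ H, x ^ p ∈ K := by
    intro x hx
    exact hΦ ⟨_, Cfsg.Agent.Lib.FrattiniPGroup.pow_mem_frattini hHp ⟨x, hx⟩, rfl⟩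
  -- cyclic quotients are small
  have hcycq : ∀ (L : Subgroup H) [L.Normal], L ≤ K.subgroupOf H → IsCyclic (H ⧸ L) → False := by
    intro L hL hLK hcyc
    obtain ⟨g, hg⟩ := hcyc.exists_generator
    obtain ⟨x, rfl⟩ := QuotientGroup.mk_surjective g
    -- `H / K` has at most `p` elements
    have hle : K.relIndex H ≤ p := by
      change Nat.card (H ⧸ K.subgroupOf H) ≤ p
      have hgen : ∀ y : H ⧸ K.subgroupOf H, y ∈ zpowers (QuotientGroup.mk x : H ⧸ K.subgroupOf H) := by
        intro y
        obtain ⟨y, rfl⟩ := QuotientGroup.mk_surjective y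
        obtain ⟨k, hk⟩ := hg (QuotientGroup.mk y)
        refine ⟨k, ?_⟩
        have h1 : (x ^ k)⁻¹ * y ∈ L := by
          rw [← QuotientGroup.eq]; exact hk
        have h2 : (QuotientGroup.mk (x ^ k) : H ⧸ K.subgroupOf H) = QuotientGroup.mk y := by
          rw [QuotientGroup.eq]; exact hLK h1
        exact h2
      rw [← orderOf_eq_card_of_forall_mem_zpowers hgen]
      apply orderOf_le_of_pow_eq_one hpf.out.pos
      rw [← QuotientGroup.mk_pow, QuotientGroup.eq_one_iff, mem_subgroupOf]
      exact hpow x x.2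
    have : p ≤ p ^ 2 := Nat.le_self_pow (by norm_num) p
    omega
  -- a maximal abelian normal subgroup below `H`
  let S : Set (Subgroup G) := {C | C.Normal ∧ C ≤ H ∧ ∀ x ∈ C, ∀ y ∈ C, x * y = y * x}
  have hSne : S.Nonempty := by
    refine ⟨⊥, inferInstance, bot_le, ?_⟩
    intro x hx y hy
    rw [Subgroup.mem_bot.1 hx, Subgroup.mem_bot.1 hy]
  obtain ⟨C, ⟨hCn, hCH, hCc⟩, hCmax⟩ := (Set.toFinite S).exists_maximal hSne
  -- abelian normal subgroups are cyclic
  have hcyc : ∀ B : Subgroup G, B.Normal → B ≤ H → (∀ x ∈ B, ∀ y ∈ B, x * y = y * x) →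
      IsCyclic B := by
    intro B hBn hBH hBc
    let : CommGroup B := { (inferInstance : Group B) with
      mul_comm := fun x y => Subtype.ext (hBc x x.2 y y.2) }
    apply Cfsg.Agent.Transfer.PGroupNormal.isCyclic_of_card_ker_pow_le (p := p) (hHp.to_le hBH)
    -- `Ω₁(B)`
    let E : Subgroup G :=
      { carrier := {x | x ∈ B ∧ x ^ p = 1}
        mul_mem' := by
          rintro a b ⟨ha, ha'⟩ ⟨hb, hb'⟩
          exact ⟨mul_mem ha hb, by
            rw [(show Commute a b from hBc a ha b hb).mul_pow, ha', hb', one_mul]⟩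
        one_mem' := ⟨one_mem _, one_pow p⟩
        inv_mem' := by
          rintro a ⟨ha, ha'⟩
          exact ⟨inv_mem ha, by rw [inv_pow, ha', inv_one]⟩ }
    have hEn : E.Normal := by
      refine ⟨fun a ha g => ⟨hBn.conj_mem a ha.1 g, ?_⟩⟩
      rw [conj_pow, ha.2, mul_one, mul_inv_cancel]
    have hEA : E ≤ A := by
      intro e he
      exact ⟨hBH he.1, he.2, s1 E hEn (fun x hx => hBH hx.1)
        (fun a ha b hb => hBc a ha.1 b hb.1) (fun a ha => ha.2) e he⟩
    refine le_trans ?_ hA2
    apply Nat.card_le_card_of_injective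
      (fun x : (powMonoidHom p : B →* B).ker => (⟨((x : B) : G), hEA ⟨(x : B).2, by
        exact congrArg Subtype.val (MonoidHom.mem_ker.1 x.2)⟩⟩ : A))
    intro x y hxy
    apply Subtype.ext
    apply Subtype.ext
    exact congrArg (fun z : A => (z : G)) hxy
  have hCcyc : IsCyclic C := hcyc C hCn hCH hCc
  -- `H` centralizes `C`
  have hHC : H ≤ centralizer (C : Set G) := by
    rcases star (centralizer (C : Set G)) inferInstance with h | h
    · exact h
    · exfalso
      have hN : normalizer (C : Set G) = ⊤ := Subgroup.normalizer_eq_top C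
      let φ : H →* MulAut C :=
        (C.normalizerMonoidHom).comp (Subgroup.inclusion (by rw [hN]; exact le_top))
      have hker : φ.ker ≤ K.subgroupOf H := by
        intro x hx
        rw [mem_subgroupOf]
        apply h
        refine ⟨x.2, ?_⟩
        change (x : G) ∈ centralizer (C : Set G)
        rw [mem_centralizer_iff]
        intro c hc
        have h1 := congrArg (fun β : MulAut C => ((β ⟨c, hc⟩ : C) : G)) (MonoidHom.mem_ker.1 hx)
        have h2 : (x : G) * c * (x : G)⁻¹ = c := h1
        exact (mul_inv_eq_iff_eq_mul.1 h2).symm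
      have hcycA : IsCyclic (MulAut C) := by
        obtain ⟨k, hk⟩ := IsPGroup.iff_card.1 (hHp.to_le hCH)
        have h1 : IsCyclic (ZMod (Nat.card C))ˣ := by
          rw [hk]
          exact ZMod.isCyclic_units_of_prime_pow p hpf.out hp k
        exact isCyclic_of_surjective (IsCyclic.mulAutMulEquiv C).symm
          (IsCyclic.mulAutMulEquiv C).symm.surjective
      have hcr : IsCyclic (H ⧸ φ.ker) :=
        isCyclic_of_injective (QuotientGroup.kerLift φ) (QuotientGroup.kerLift_injective φ)
      exact hcycq φ.ker hker hcr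
  have hCcen : ∀ c ∈ C, ∀ h ∈ H, c * h = h * c := fun c hc h hh =>
    (mem_centralizer_iff.1 (hHC hh)) c hc
  by_cases hCeq : C = H
  · -- `H` is cyclic
    have hHcyc : IsCyclic H := by rw [← hCeq]; exact hCcyc
    refine hcycq ⊥ bot_le ?_
    exact isCyclic_of_surjective (QuotientGroup.mk' (⊥ : Subgroup H)) (QuotientGroup.mk'_surjective _)
  have hClt : C < H := lt_of_le_of_ne hCH hCeq
  -- the subgroup `B`
  have hCcomm : ∀ b ∈ H, ∀ h ∈ H, ⁅b, h⁆ ∈ C → ∀ g ∈ H, Commute g ⁅b, h⁆ :=
    fun b _ h _ hbh g hg => (hCcen _ hbh g hg).symm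
  let B : Subgroup G :=
    { carrier := {b | b ∈ H ∧ b ^ p ∈ C ∧ ∀ h ∈ H, ⁅b, h⁆ ∈ C}
      mul_mem' := by
        rintro a b ⟨ha, ha', hac⟩ ⟨hb, hb', hbc⟩
        refine ⟨mul_mem ha hb, ?_, ?_⟩
        · rw [Cfsg.Agent.OddOrderLocal.MetacyclicCoprime.mul_pow_of_commute_commutator
            (hCcomm b hb a ha (hbc a ha) a ha) (hCcomm b hb a ha (hbc a ha) b hb)]
          exact mul_mem (mul_mem ha' hb') (pow_mem (hbc a ha) _)
        · intro h hh
          have h1 : ⁅a * b, h⁆ = a * ⁅b, h⁆ * a⁻¹ * ⁅a, h⁆ := by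
            simp only [commutatorElement_def]; group
          rw [h1]
          exact mul_mem (hCn.conj_mem _ (hbc h hh) a) (hac h hh)
      one_mem' := ⟨one_mem _, by rw [one_pow]; exact one_mem _, fun h _ => by
        rw [commutatorElement_one_left]; exact one_mem _⟩
      inv_mem' := by
        rintro a ⟨ha, ha', hac⟩
        refine ⟨inv_mem ha, by rw [inv_pow]; exact inv_mem ha', ?_⟩
        intro h hh
        have h1 : ⁅a⁻¹, h⁆ = a⁻¹ * ⁅a, h⁆⁻¹ * a⁻¹⁻¹ := by
          simp only [commutatorElement_def]; group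
        rw [h1]
        exact hCn.conj_mem _ (inv_mem (hac h hh)) a⁻¹ }
  have hBn : B.Normal := by
    refine ⟨fun b hb g => ⟨hHn.conj_mem b hb.1 g, ?_, ?_⟩⟩
    · rw [conj_pow]; exact hCn.conj_mem _ hb.2.1 g
    · intro h hh
      have h1 : g⁻¹ * h * g ∈ H := by
        have := hHn.conj_mem h hh g⁻¹
        rwa [inv_inv] at this
      have h2 : ⁅g * b * g⁻¹, h⁆ = g * ⁅b, g⁻¹ * h * g⁆ * g⁻¹ := by
        simp only [commutatorElement_def]; group
      rw [h2]
      exact hCn.conj_mem _ (hb.2.2 _ h1) g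
  have hBH : B ≤ H := fun b hb => hb.1
  have hCB : C ≤ B := by
    intro c hc
    refine ⟨hCH hc, pow_mem hc p, ?_⟩
    intro h hh
    rw [commutatorElement_eq_one_iff_mul_comm.2 (hCcen c hc h hh)]
    exact one_mem _
  have hBne : ¬ B ≤ C := by
    intro hle
    -- a central element of order `p` of `H / C`
    have hq : IsPGroup p (H ⧸ C.subgroupOf H) := hHp.to_quotient _
    have hnt : Nontrivial (H ⧸ C.subgroupOf H) := by
      obtain ⟨x, hxH, hxC⟩ := SetLike.exists_of_lt hClt
      refine ⟨⟨QuotientGroup.mk ⟨x, hxH⟩, 1, ?_⟩⟩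
      intro h
      rw [QuotientGroup.eq_one_iff, mem_subgroupOf] at h
      exact hxC h
    have hcn := hq.center_nontrivial
    have hcp : IsPGroup p (center (H ⧸ C.subgroupOf H)) := hq.to_subgroup _
    obtain ⟨m, hm0, hm⟩ := hcp.nontrivial_iff_card.1 hcn
    obtain ⟨z, hz⟩ := exists_prime_orderOf_dvd_card' (G := center (H ⧸ C.subgroupOf H)) p (by
      rw [hm]; exact dvd_pow_self p hm0.ne')
    obtain ⟨y, hy⟩ := QuotientGroup.mk_surjective (z : H ⧸ C.subgroupOf H)
    have hyB : (y : G) ∈ B := by
      refine ⟨y.2, ?_, ?_⟩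
      · have h1 : (z : H ⧸ C.subgroupOf H) ^ p = 1 := by
          have := pow_orderOf_eq_one z
          rw [hz] at this
          exact congrArg Subtype.val this
        rw [← hy, ← QuotientGroup.mk_pow, QuotientGroup.eq_one_iff, mem_subgroupOf] at h1
        exact h1
      · intro h hh
        have h1 := (mem_center_iff.1 z.2) (QuotientGroup.mk ⟨h, hh⟩)
        rw [← hy] at h1
        have h2 : ⁅(QuotientGroup.mk y : H ⧸ C.subgroupOf H),
            (QuotientGroup.mk (⟨h, hh⟩ : H) : H ⧸ C.subgroupOf H)⁆ = 1 :=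
          commutatorElement_eq_one_iff_mul_comm.2 h1.symm
        have h3 : (QuotientGroup.mk ⁅y, (⟨h, hh⟩ : H)⁆ : H ⧸ C.subgroupOf H) = 1 := h2
        rw [QuotientGroup.eq_one_iff, mem_subgroupOf] at h3
        exact h3
    have h1 : (y : G) ∈ C := hle hyB
    have h2 : (z : H ⧸ C.subgroupOf H) = 1 := by
      rw [← hy, QuotientGroup.eq_one_iff, mem_subgroupOf]
      exact h1
    have h3 : z = 1 := Subtype.ext h2
    rw [h3, orderOf_one] at hz
    exact hpf.out.ne_one hz.symm
  -- commutators `⁅b, h⁆` lie in `A`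
  have hBA : ∀ b ∈ B, ∀ h ∈ H, ⁅b, h⁆ ∈ A := by
    intro b hb h hh
    have h1 : ⁅b, h⁆ ∈ C := hb.2.2 h hh
    have h2 : ⁅b, h⁆ ^ p = 1 := by
      rw [← Cfsg.Agent.OddOrderLocal.MetacyclicCoprime.commutator_pow_left
        (hCcomm b hb.1 h hh h1 b hb.1)]
      exact commutatorElement_eq_one_iff_mul_comm.2 (hCcen _ hb.2.1 h hh)
    exact ⟨hCH h1, h2, hCcen _ h1⟩
  have hBmul : ∀ a ∈ B, ∀ b ∈ B, (a * b) ^ p = a ^ p * b ^ p := by
    intro a ha b hb
    have h1 := hBA b hb a ha.1
    exact Cfsg.Agent.OddOrderLocal.MetacyclicCoprime.mul_pow_prime_of_commute_commutator hp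
      (hAc _ h1 a ha.1).symm (hAc _ h1 b hb.1).symm (hAp _ h1)
  -- the subgroup `E`
  let E : Subgroup G :=
    { carrier := {x | x ∈ B ∧ x ^ p = 1}
      mul_mem' := by
        rintro a b ⟨ha, ha'⟩ ⟨hb, hb'⟩
        exact ⟨mul_mem ha hb, by rw [hBmul a ha b hb, ha', hb', one_mul]⟩
      one_mem' := ⟨one_mem _, one_pow p⟩
      inv_mem' := by
        rintro a ⟨ha, ha'⟩
        exact ⟨inv_mem ha, by rw [inv_pow, ha', inv_one]⟩ }
  have hEn : E.Normal := by
    refine ⟨fun a ha g => ⟨hBn.conj_mem a ha.1 g, ?_⟩⟩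
    rw [conj_pow, ha.2, mul_one, mul_inv_cancel]
  have hEB : E ≤ B := fun e he => he.1
  have hEH : E ≤ H := hEB.trans hBH
  have hAB : A ≤ B := by
    intro a ha
    refine ⟨hAH ha, by rw [hAp a ha]; exact one_mem _, ?_⟩
    intro h hh
    rw [commutatorElement_eq_one_iff_mul_comm.2 (hAc a ha h hh)]
    exact one_mem _
  have hAE : A ≤ E := fun a ha => ⟨hAB ha, hAp a ha⟩
  -- orbits of elements of `E`
  have horb : ∀ e ∈ E, (centralizer ({e} : Set G)).relIndex H ≤ p := by
    intro e he
    have h1 : (centralizer ({e} : Set G)).relIndex H ≤ Nat.card {y : G | y * e⁻¹ ∈ A} := by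
      apply relIndex_centralizer_le
      intro h hh
      change h * e * h⁻¹ * e⁻¹ ∈ A
      have h2 := inv_mem (hBA e (hEB he) h hh)
      rw [commutatorElement_inv] at h2
      exact h2
    refine h1.trans (le_trans ?_ hA2)
    apply Nat.card_le_card_of_injective
      (fun y : {y : G | y * e⁻¹ ∈ A} => (⟨(y : G) * e⁻¹, y.2⟩ : A))
    intro x y hxy
    apply Subtype.ext
    exact mul_right_cancel (congrArg Subtype.val hxy)
  have hEcomm : ∀ x ∈ E, ∀ y ∈ E, x * y = y * x := by
    by_contra hcon
    push Not at hcon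
    obtain ⟨x, hx, y, hy, hxy⟩ := hcon
    -- `C_E(x) = A⟨x⟩`
    have hxA : x ∉ A := fun h => hxy (hAc x h y (hEH hy))
    have hA1 : A ≠ ⊥ := by
      intro h
      have h1 := hBA x (hEB hx) y (hEH hy)
      rw [h, Subgroup.mem_bot, commutatorElement_eq_one_iff_mul_comm] at h1
      exact hxy h1
    have hAp' : Nat.card A = p := by
      obtain ⟨k, hk⟩ := IsPGroup.iff_card.1 (hHp.to_le hAH)
      have h1 : k ≠ 0 := by
        rintro rfl
        rw [pow_zero, Subgroup.card_eq_one] at hk
        exact hA1 hk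
      have h2 : p ^ 1 ≤ p ^ k := Nat.pow_le_pow_right hpf.out.pos (Nat.one_le_iff_ne_zero.2 h1)
      rw [pow_one, ← hk] at h2
      exact le_antisymm hA2 h2
    have hT : Nat.card (A ⊔ zpowers x : Subgroup G) = p ^ 2 := by
      apply le_antisymm (hadd x (hEH hx) hx.2)
      obtain ⟨k, hk⟩ := IsPGroup.iff_card.1
        (hHp.to_le (sup_le hAH (by rw [zpowers_le]; exact hEH hx)) : IsPGroup p
          (A ⊔ zpowers x : Subgroup G))
      have h1 : Nat.card A < Nat.card (A ⊔ zpowers x : Subgroup G) := by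
        refine lt_of_le_of_ne (Subgroup.card_le_of_le le_sup_left) ?_
        intro h
        have h3 := Subgroup.eq_of_le_of_card_ge (le_sup_left : A ≤ A ⊔ zpowers x) h.ge
        apply hxA
        rw [h3]
        exact mem_sup_right (mem_zpowers x)
      rw [hAp', hk] at h1
      rw [hk]
      apply Nat.pow_le_pow_right hpf.out.pos
      have h2 : 1 < k := by
        apply (Nat.pow_lt_pow_iff_right hp1).1
        rw [pow_one]; exact h1
      omega
    have hcx : ∀ z ∈ E, z * x = x * z → z ∈ A ⊔ zpowers x := by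
      intro z hz hzx
      have h1 : Nat.card ((A ⊔ zpowers x) ⊔ zpowers z : Subgroup G) ≤ p ^ 2 := by
        have hform : ∀ y ∈ (A ⊔ zpowers x) ⊔ zpowers z, ∃ a ∈ A, ∃ k l : ℤ,
            y = a * x ^ k * z ^ l := by
          intro w hw
          have hle : (A ⊔ zpowers x) ⊔ zpowers z ≤ A ⊔ (zpowers x ⊔ zpowers z) := by
            rw [sup_assoc]
          have hw' := hle hw
          rw [Subgroup.mem_sup_of_normal_left] at hw'
          obtain ⟨a, ha, w', hw', rfl⟩ := hw'
          -- `⟨x⟩ ⊔ ⟨z⟩`
          have h2 : w' ∈ closure ({x, z} : Set G) := by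
            have h3 : zpowers x ⊔ zpowers z ≤ closure ({x, z} : Set G) := by
              rw [sup_le_iff, zpowers_le, zpowers_le]
              exact ⟨subset_closure (by simp), subset_closure (by simp)⟩
            exact h3 hw'
          have hc : Commute x z := hzx.symm
          have h4 : ∀ w' ∈ closure ({x, z} : Set G), ∃ k l : ℤ, w' = x ^ k * z ^ l := by
            intro w' hw'
            induction hw' using Subgroup.closure_induction with
            | mem u hu =>
              rcases hu with rfl | rfl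
              · exact ⟨1, 0, by simp⟩
              · exact ⟨0, 1, by simp⟩
            | one => exact ⟨0, 0, by simp⟩
            | mul u v _ _ hu hv =>
              obtain ⟨k, l, rfl⟩ := hu
              obtain ⟨k', l', rfl⟩ := hv
              refine ⟨k + k', l + l', ?_⟩
              have h5 : z ^ l * x ^ k' = x ^ k' * z ^ l := ((hc.zpow_zpow k' l)).eq.symm
              calc x ^ k * z ^ l * (x ^ k' * z ^ l') = x ^ k * (z ^ l * x ^ k') * z ^ l' := by group
                _ = x ^ k * (x ^ k' * z ^ l) * z ^ l' := by rw [h5]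
                _ = x ^ (k + k') * z ^ (l + l') := by rw [zpow_add, zpow_add]; group
            | inv u _ hu =>
              obtain ⟨k, l, rfl⟩ := hu
              refine ⟨-k, -l, ?_⟩
              rw [mul_inv_rev, ← zpow_neg, ← zpow_neg]
              exact ((hc.zpow_zpow (-k) (-l))).eq.symm
          obtain ⟨k, l, rfl⟩ := h4 w' h2
          exact ⟨a, ha, k, l, by rw [mul_assoc]⟩
        have ex : Commute x z := hzx.symm
        apply hr
        · refine (sup_le (sup_le hAH ?_) ?_).trans hHP
          · rw [zpowers_le]; exact hEH hx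
          · rw [zpowers_le]; exact hEH hz
        · intro u hu v hv
          obtain ⟨a, ha, k, l, rfl⟩ := hform u hu
          obtain ⟨b, hb, k', l', rfl⟩ := hform v hv
          have e1 : Commute a b := hAcomm a ha b hb
          have e2 : Commute a x := hAc a ha x (hEH hx)
          have e3 : Commute b x := hAc b hb x (hEH hx)
          have e4 : Commute a z := hAc a ha z (hEH hz)
          have e5 : Commute b z := hAc b hb z (hEH hz)
          have f1 : Commute a (b * x ^ k' * z ^ l') :=
            (e1.mul_right (e2.zpow_right k')).mul_right (e4.zpow_right l')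
          have f2 : Commute (x ^ k) (b * x ^ k' * z ^ l') :=
            ((e3.symm.zpow_left k).mul_right ((Commute.refl x).zpow_zpow k k')).mul_right
              (ex.zpow_zpow k l')
          have f3 : Commute (z ^ l) (b * x ^ k' * z ^ l') :=
            ((e5.symm.zpow_left l).mul_right (ex.symm.zpow_zpow l k')).mul_right
              ((Commute.refl z).zpow_zpow l l')
          exact (f1.mul_left f2).mul_left f3
        · intro u hu
          obtain ⟨a, ha, k, l, rfl⟩ := hform u hu
          have e2 : Commute a x := hAc a ha x (hEH hx)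
          have e4 : Commute a z := hAc a ha z (hEH hz)
          have f1 : Commute (a * x ^ k) (z ^ l) :=
            (e4.zpow_right l).mul_left (ex.zpow_zpow k l)
          have hxk : (x ^ k) ^ p = 1 := by
            rw [← zpow_natCast, ← zpow_mul, mul_comm, zpow_mul, zpow_natCast, hx.2, one_zpow]
          have hzl : (z ^ l) ^ p = 1 := by
            rw [← zpow_natCast, ← zpow_mul, mul_comm, zpow_mul, zpow_natCast, hz.2, one_zpow]
          rw [f1.mul_pow, (e2.zpow_right k).mul_pow, hAp a ha, hxk, hzl, one_mul, one_mul]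
      have h2 := Subgroup.eq_of_le_of_card_ge
        (le_sup_left : A ⊔ zpowers x ≤ (A ⊔ zpowers x) ⊔ zpowers z) (by rw [hT]; exact h1)
      rw [h2]
      exact mem_sup_right (mem_zpowers z)
    -- elements commuting with `x` and `y` centralize `E`
    have hcent : ∀ h ∈ H, h * x = x * h → h * y = y * h → ∀ e ∈ E, h * e = e * h := by
      intro h hh hhx hhy
      set F : Subgroup G := E ⊓ centralizer ({h} : Set G) with hF
      have hxF : x ∈ F := ⟨hx, mem_centralizer_singleton_iff.2 hhx.symm⟩
      have hyF : y ∈ F := ⟨hy, mem_centralizer_singleton_iff.2 hhy.symm⟩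
      have hAF : A ≤ F := by
        intro a ha
        exact ⟨hAE ha, mem_centralizer_singleton_iff.2 (hAc a ha h hh)⟩
      have hCF : E ⊓ centralizer ({x} : Set G) ≤ F := by
        rintro z ⟨hz, hzx⟩
        have h1 := hcx z hz (mem_centralizer_singleton_iff.1 hzx)
        have h2 : A ⊔ zpowers x ≤ F := sup_le hAF (by rw [zpowers_le]; exact hxF)
        exact h2 h1
      have hEp : IsPGroup p E := hHp.to_le hEH
      have hle : (E ⊓ centralizer ({x} : Set G)).relIndex E ≤ p := by
        rw [inf_relIndex_left]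
        have h1 : (centralizer ({x} : Set G)).relIndex E ≤ Nat.card {z : G | z * x⁻¹ ∈ A} := by
          apply relIndex_centralizer_le
          intro e he
          change e * x * e⁻¹ * x⁻¹ ∈ A
          have h2 := hBA e (hEB he) x (hEH hx)
          rw [commutatorElement_def] at h2
          exact h2
        refine h1.trans (le_trans ?_ hA2)
        apply Nat.card_le_card_of_injective
          (fun z : {z : G | z * x⁻¹ ∈ A} => (⟨(z : G) * x⁻¹, z.2⟩ : A))
        intro u v huv
        apply Subtype.ext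
        exact mul_right_cancel (congrArg Subtype.val huv)
      have hmul := Subgroup.relIndex_mul_relIndex (E ⊓ centralizer ({x} : Set G)) F E hCF inf_le_left
      obtain ⟨k, hk⟩ := relIndex_pow (hEp.to_le (inf_le_left : F ≤ E))
        (E ⊓ centralizer ({x} : Set G))
      have hk0 : k ≠ 0 := by
        rintro rfl
        rw [pow_zero, Subgroup.relIndex_eq_one] at hk
        have h1 := (hk hyF).2
        exact hxy (mem_centralizer_singleton_iff.1 h1).symm
      have hpk : p ≤ p ^ k := Nat.le_self_pow hk0 p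
      have hF1 : F.relIndex E = 1 := by
        rw [hk] at hmul
        rw [← hmul] at hle
        by_contra hne
        have h1 : F.relIndex E ≠ 0 := Subgroup.index_ne_zero_of_finite
        have h2 : 2 ≤ F.relIndex E := by omega
        have h3 : p * 2 ≤ p ^ k * F.relIndex E := Nat.mul_le_mul hpk h2
        have h4 : 0 < p := hpf.out.pos
        omega
      have hEF : E ≤ F := Subgroup.relIndex_eq_one.1 hF1
      intro e he
      exact (mem_centralizer_singleton_iff.1 (hEF he).2).symm
    have hHE : H ≤ centralizer (E : Set G) := by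
      apply s0 _ inferInstance
      have h1 : (centralizer ({x} : Set G) ⊓ centralizer ({y} : Set G)) ⊓ H ≤
          centralizer (E : Set G) := by
        rintro h ⟨⟨hhx, hhy⟩, hh⟩
        rw [mem_centralizer_iff]
        intro e he
        exact (hcent h hh (mem_centralizer_singleton_iff.1 hhx)
          (mem_centralizer_singleton_iff.1 hhy) e he).symm
      have h2 := Subgroup.relIndex_dvd_of_le_left H h1
      rw [inf_relIndex_right] at h2
      have h3 := Nat.le_of_dvd (Nat.pos_of_ne_zero Subgroup.index_ne_zero_of_finite) h2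
      refine h3.trans ?_
      refine (Subgroup.relIndex_inf_le (H := centralizer ({x} : Set G))
        (K := centralizer ({y} : Set G)) (L := H)).trans ?_
      rw [pow_two]
      exact Nat.mul_le_mul (horb x hx) (horb y hy)
    exact hxy ((mem_centralizer_iff.1 (hHE (hEH hy))) x hx)
  have hEA : E ≤ A := by
    intro e he
    exact ⟨hEH he, he.2, s1 E hEn hEH hEcomm (fun a ha => ha.2) e he⟩
  -- `B` is commutative
  have hBcomm : ∀ x ∈ B, ∀ y ∈ B, x * y = y * x := by
    let π : B →* C :=
      { toFun := fun b => ⟨(b : G) ^ p, b.2.2.1⟩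
        map_one' := Subtype.ext (one_pow p)
        map_mul' := fun a b => Subtype.ext (hBmul a a.2 b b.2) }
    have hker : π.ker ≤ center B := by
      intro b hb
      have h1 : (b : G) ^ p = 1 := congrArg Subtype.val (MonoidHom.mem_ker.1 hb)
      have h2 : (b : G) ∈ A := hEA ⟨b.2, h1⟩
      rw [mem_center_iff]
      intro g
      apply Subtype.ext
      exact (hAc _ h2 g g.2.1).symm
    have h3 := π.isMulCommutative_of_isCyclic_of_ker_le_center hker
    intro x hx y hy
    exact congrArg Subtype.val (h3.is_comm.comm (⟨x, hx⟩ : B) ⟨y, hy⟩)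
  exact hBne (hCmax ⟨hBn, hBH, hBcomm⟩ hCB)

/-- **Chief factors below a normal `p`-subgroup of rank at most two**, `p` odd. -/
theorem chief_of_rank_two [Finite G] {p : ℕ} [Fact p.Prime] (hp : p ≠ 2) {P : Subgroup G}
    (hP : IsPGroup p P)
    (hr : ∀ A : Subgroup G, A ≤ P → (∀ a ∈ A, ∀ b ∈ A, a * b = b * a) → (∀ a ∈ A, a ^ p = 1) →
      Nat.card A ≤ p ^ 2) {K H : Subgroup G} (h : IsChief K H) (hH : H ≤ P) :
    K.relIndex H ≤ p ^ 2 :=
  chief_of_rank_two_aux hp hP hr (Nat.card H) K H rfl h hH

end Cfsg.Agent.H17.RankTwoChief
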